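import Cfsg.Agent.Lib.Helper44.FW.Defs

/-!
# FW [INVOL] (S3211): the involutions of `C(j)` other than `j` are the products `x * y` with
`x ∈ L₁`, `y ∈ L₂`, `x² = y² = j`.
-/

set_option autoImplicit false

namespace Cfsg.Agent.Lib.Helper97.FW

open Cfsg.Agent.Lib.Helper44.FW

universe u

/-- The product of two elementwise commuting subgroups. -/
def prodSub97 {G : Type u} [Group G] (A B : Subgroup G)
    (h : ∀ a ∈ A, ∀ b ∈ B, a * b = b * a) : Subgroup G where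
  carrier := {x | ∃ a ∈ A, ∃ b ∈ B, x = a * b}
  mul_mem' := by
    rintro _ _ ⟨z, hz, e, he, rfl⟩ ⟨z', hz', e', he', rfl⟩
    refine ⟨z * z', mul_mem hz hz', e * e', mul_mem he he', ?_⟩
    have h1 := h z' hz' e he
    calc z * e * (z' * e') = z * (e * z') * e' := by group
      _ = z * (z' * e) * e' := by rw [h1]
      _ = z * z' * (e * e') := by group
  one_mem' := ⟨1, one_mem _, 1, one_mem _, by simp⟩
  inv_mem' := by
    rintro _ ⟨z, hz, e, he, rfl⟩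
    refine ⟨z⁻¹, inv_mem hz, e⁻¹, inv_mem he, ?_⟩
    have h1 := h z⁻¹ (inv_mem hz) e⁻¹ (inv_mem he)
    rw [mul_inv_rev, h1]

theorem sup_decomp97 {G : Type u} [Group G] (A B : Subgroup G)
    (h : ∀ a ∈ A, ∀ b ∈ B, a * b = b * a) {x : G} (hx : x ∈ A ⊔ B) :
    ∃ a ∈ A, ∃ b ∈ B, x = a * b := by
  have hle : A ⊔ B ≤ prodSub97 A B h := by
    refine sup_le ?_ ?_
    · intro z hz; exact ⟨z, hz, 1, one_mem _, by simp⟩
    · intro e he; exact ⟨1, one_mem _, e, he, by simp⟩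
  exact hle hx

theorem zpowers_sq97 {G : Type u} [Group G] {s x : G} (hs : s ^ 2 = 1)
    (hx : x ∈ Subgroup.zpowers s) : x = 1 ∨ x = s := by
  obtain ⟨n, rfl⟩ := Subgroup.mem_zpowers_iff.mp hx
  rcases Int.even_or_odd' n with ⟨m, rfl | rfl⟩
  · left
    rw [zpow_mul, zpow_ofNat, hs, one_zpow]
  · right
    rw [zpow_add, zpow_one, zpow_mul, zpow_ofNat, hs, one_zpow, one_mul]

theorem pkgInvol : PkgInvol.{u} := by
  intro G _ L₁ L₂ j n hcfg hU₁ hU₂ r hr hr2 hr1 hrj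
  obtain ⟨comm, meet, ord, le, idx, hn, hn2, swap⟩ := hcfg
  have hj2 : j ^ 2 = 1 := by rw [← ord]; exact pow_orderOf_eq_one j
  have hjj : j * j = 1 := by rw [← sq]; exact hj2
  have hjinv : j⁻¹ = j := inv_eq_of_mul_eq_one_left hjj
  have hj1 : j ≠ 1 := by
    intro h; rw [h, orderOf_one] at ord; omega
  have hnn : n * n = j := by rw [← sq]; exact hn2
  have hjL : j ∈ L₁ ⊓ L₂ := by rw [meet]; exact Subgroup.mem_zpowers j
  have hjL₁ : j ∈ L₁ := hjL.1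
  have hjL₂ : j ∈ L₂ := hjL.2
  have hmeet : ∀ x, x ∈ L₁ → x ∈ L₂ → x = 1 ∨ x = j := by
    intro x h1 h2
    have : x ∈ L₁ ⊓ L₂ := ⟨h1, h2⟩
    rw [meet] at this
    exact zpowers_sq97 hj2 this
  have hnj : j * n = n * j := (Subgroup.mem_centralizer_iff.mp hn) j (Set.mem_singleton j)
  -- `n ∉ L₁ ⊔ L₂`
  have hnY : n ∉ L₁ ⊔ L₂ := by
    intro hnY
    obtain ⟨x, hx, y, hy, hnxy⟩ := sup_decomp97 L₁ L₂ comm hnY
    have hL21 : ∀ l₂ ∈ L₂, l₂ ∈ L₁ := by
      intro l₂ hl₂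
      rw [← swap] at hl₂
      obtain ⟨l, hl, rfl⟩ := hl₂
      show n * l * n⁻¹ ∈ L₁
      have h1 : l * y = y * l := comm l hl y hy
      have h2 : n * l * n⁻¹ = x * l * x⁻¹ := by
        rw [hnxy]
        calc x * y * l * (x * y)⁻¹ = x * (y * l) * y⁻¹ * x⁻¹ := by group
          _ = x * (l * y) * y⁻¹ * x⁻¹ := by rw [h1]
          _ = x * l * x⁻¹ := by group
      rw [h2]
      exact mul_mem (mul_mem hx hl) (inv_mem hx)
    have hnL₁ : n ∈ L₁ := by rw [hnxy]; exact mul_mem hx (hL21 y hy)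
    have hnL₂ : n ∈ L₂ := by
      rw [← swap]
      exact ⟨n, hnL₁, by simp⟩
    rcases hmeet n hnL₁ hnL₂ with h | h
    · apply hj1; rw [← hnn, h, one_mul]
    · apply hj1; rw [← hnn, h]; exact hjj
  by_cases hrY : r ∈ L₁ ⊔ L₂
  · -- `r = x * y`
    obtain ⟨x, hx, y, hy, rfl⟩ := sup_decomp97 L₁ L₂ comm hrY
    have hxy : Commute x y := comm x hx y hy
    rw [hxy.mul_pow] at hr2
    have hx2 : x ^ 2 = (y ^ 2)⁻¹ := eq_inv_of_mul_eq_one_left hr2
    have hx2L₂ : x ^ 2 ∈ L₂ := by rw [hx2]; exact inv_mem (pow_mem hy 2)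
    rcases hmeet _ (pow_mem hx 2) hx2L₂ with h | h
    · exfalso
      have hy2 : y ^ 2 = 1 := by rw [h, one_mul] at hr2; exact hr2
      rcases hU₁ x hx h with rfl | rfl <;> rcases hU₂ y hy hy2 with rfl | rfl
      · exact hr1 (one_mul 1)
      · exact hrj (one_mul _)
      · exact hrj (mul_one _)
      · exact hr1 hjj
    · refine ⟨x, hx, y, hy, rfl, h, ?_⟩
      rw [h] at hr2
      have : y ^ 2 = j⁻¹ := eq_inv_of_mul_eq_one_right hr2
      rw [this, hjinv]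
  · -- `r = n * u * v` is impossible
    exfalso
    have hw : n⁻¹ * r ∈ L₁ ⊔ L₂ := by
      have hidx : ((L₁ ⊔ L₂).subgroupOf (Subgroup.centralizer ({j} : Set G))).index = 2 := idx
      have key := Subgroup.mul_mem_iff_of_index_two hidx
        (a := (⟨n, hn⟩ : Subgroup.centralizer ({j} : Set G))⁻¹)
        (b := (⟨r, hr⟩ : Subgroup.centralizer ({j} : Set G)))
      have h1 : ¬ ((⟨n, hn⟩ : Subgroup.centralizer ({j} : Set G))⁻¹ ∈
          (L₁ ⊔ L₂).subgroupOf (Subgroup.centralizer ({j} : Set G))) := by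
        rw [inv_mem_iff, Subgroup.mem_subgroupOf]; exact hnY
      have h2 : ¬ ((⟨r, hr⟩ : Subgroup.centralizer ({j} : Set G)) ∈
          (L₁ ⊔ L₂).subgroupOf (Subgroup.centralizer ({j} : Set G))) := by
        rw [Subgroup.mem_subgroupOf]; exact hrY
      have h3 := key.mpr ⟨fun h => absurd h h1, fun h => absurd h h2⟩
      rw [Subgroup.mem_subgroupOf] at h3
      exact h3
    obtain ⟨u, hu, v, hv, hw⟩ := sup_decomp97 L₁ L₂ comm hw
    have hruv : r = n * (u * v) := by rw [← hw]; group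
    -- `p = n u n⁻¹ ∈ L₂`, `q = n v n⁻¹ ∈ L₁`
    have hp : n * u * n⁻¹ ∈ L₂ := by
      rw [← swap]; exact ⟨u, hu, rfl⟩
    have hq : n * v * n⁻¹ ∈ L₁ := by
      have hv' := hv
      rw [← swap] at hv'
      obtain ⟨l, hl, rfl⟩ := hv'
      show n * (n * l * n⁻¹) * n⁻¹ ∈ L₁
      have : n * (n * l * n⁻¹) * n⁻¹ = (n * n) * l * (n * n)⁻¹ := by group
      rw [this, hnn]
      exact mul_mem (mul_mem hjL₁ hl) (inv_mem hjL₁)
    have hA : n * v * n⁻¹ * j * u ∈ L₁ := mul_mem (mul_mem hq hjL₁) hu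
    have hB : n * u * n⁻¹ * v ∈ L₂ := mul_mem hp hv
    have hcomm1 : (n * v * n⁻¹ * j * u) * (n * u * n⁻¹) = (n * u * n⁻¹) * (n * v * n⁻¹ * j * u) :=
      comm _ hA _ hp
    have hAB : (n * v * n⁻¹ * j * u) * (n * u * n⁻¹ * v) = 1 := by
      calc (n * v * n⁻¹ * j * u) * (n * u * n⁻¹ * v)
          = (n * v * n⁻¹ * j * u) * (n * u * n⁻¹) * v := by group
        _ = (n * u * n⁻¹) * (n * v * n⁻¹ * j * u) * v := by rw [hcomm1]
        _ = (n * u * n⁻¹) * (n * v * n⁻¹) * (n * n) * u * v := by rw [hnn]; group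
        _ = (n * (u * v)) ^ 2 := by rw [sq]; group
        _ = 1 := by rw [← hruv]; exact hr2
    have hAL₂ : n * v * n⁻¹ * j * u ∈ L₂ := by
      rw [eq_inv_of_mul_eq_one_left hAB]; exact inv_mem hB
    have huj : u * j = j * u := comm u hu j hjL₂
    rcases hmeet _ hA hAL₂ with h | h
    · -- `A = 1`
      rw [h, one_mul] at hAB
      have hv2 : v = (n * u * n⁻¹)⁻¹ := eq_inv_of_mul_eq_one_right hAB
      rw [hv2] at h
      apply hj1
      calc j = (n * n) * u⁻¹ * (n * n)⁻¹ * j * u := by rw [hnn]; group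
        _ = n * (n * u * n⁻¹)⁻¹ * n⁻¹ * j * u := by group
        _ = 1 := h
    · -- `A = j`
      rw [h] at hAB
      have hB' : n * u * n⁻¹ * v = j⁻¹ := eq_inv_of_mul_eq_one_right hAB
      have hv2 : v = (n * u * n⁻¹)⁻¹ * j⁻¹ := by rw [← hB']; group
      rw [hv2] at h
      have hnj' : n⁻¹ * j⁻¹ = j⁻¹ * n⁻¹ := by
        rw [← mul_inv_rev, ← mul_inv_rev, hnj]
      have hc : u⁻¹ * j⁻¹ * u = j⁻¹ := by
        calc u⁻¹ * j⁻¹ * u = (u⁻¹ * (j * u))⁻¹ := by group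
          _ = (u⁻¹ * (u * j))⁻¹ := by rw [huj]
          _ = j⁻¹ := by group
      apply hj1
      calc j = n * ((n * u * n⁻¹)⁻¹ * j⁻¹) * n⁻¹ * j * u := h.symm
        _ = (n * n) * u⁻¹ * (n⁻¹ * j⁻¹) * n⁻¹ * j * u := by group
        _ = (n * n) * u⁻¹ * (j⁻¹ * n⁻¹) * n⁻¹ * j * u := by rw [hnj']
        _ = (n * n) * u⁻¹ * j⁻¹ * (n * n)⁻¹ * j * u := by group
        _ = j * (u⁻¹ * j⁻¹ * u) := by rw [hnn]; group
        _ = 1 := by rw [hc]; group

end Cfsg.Agent.Lib.Helper97.FW
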